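import Cfsg.Agent.Lib.Mat.SL2
import Cfsg.Agent.Lib.Fus.Sp4Crit

/-!
The subgroup `SL₂(q) ≀ C₂` of `Sp₄(q)`, `q` odd.
-/

set_option autoImplicit false

namespace Cfsg.Agent.Mat

open Matrix Cfsg.Agent.Fus

variable {F : Type*} [Field F] {Γ G : Type*} [Group Γ] [Group G]

abbrev M4 (F : Type*) := Matrix (Fin 2 ⊕ Fin 2) (Fin 2 ⊕ Fin 2) F

theorem mul_mI_mul_transpose (a : M2 F) : a * mI F * aᵀ = a.det • mI F := by
  refine m2_ext ?_ ?_ ?_ ?_ <;> simp [mI, mul_apply, Fin.sum_univ_two, det_fin_two] <;> ring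

theorem det_eq_one_of_mul_mI {a : M2 F} (h : a * mI F * aᵀ = mI F) : a.det = 1 := by
  simpa [mI] using (entries_of_eq ((mul_mI_mul_transpose a).symm.trans h)).2.2.1

/-- `φ` identifies `G` with the symplectic group of the sum of two hyperbolic planes. -/
structure IsSp4 (φ : G →* M4 F) : Prop where
  inj : Function.Injective φ
  mem : ∀ X : M4 F, X * fromBlocks (mI F) 0 0 (mI F) * Xᵀ = fromBlocks (mI F) 0 0 (mI F) ↔
    ∃ g, φ g = X

theorem exists_isSp4 (F : Type*) [Field F] :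
    ∃ φ : symplecticGroup (Fin 2) F →* M4 F, IsSp4 φ := by
  let e : Fin 2 ⊕ Fin 2 ≃ Fin 2 ⊕ Fin 2 := Equiv.swap (.inl 1) (.inr 0)
  have he : reindexAlgEquiv F F e (J (Fin 2) F) = fromBlocks (mI F) 0 0 (mI F) := by
    ext a b
    rcases a with a | a <;> rcases b with b | b <;> fin_cases a <;> fin_cases b <;>
      simp [e, J, mI, Equiv.swap_apply_def]
  refine ⟨(reindexAlgEquiv F F e).toMonoidHom.comp (symplecticGroup (Fin 2) F).subtype,
    (reindexAlgEquiv F F e).injective.comp Subtype.val_injective, fun X => ?_⟩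
  obtain ⟨X, rfl⟩ := (reindexAlgEquiv F F e).surjective X
  rw [← he, show (reindexAlgEquiv F F e X)ᵀ = reindexAlgEquiv F F e Xᵀ from rfl, ← map_mul,
    ← map_mul, (reindexAlgEquiv F F e).injective.eq_iff]
  exact ⟨fun h => ⟨⟨X, h⟩, rfl⟩, fun ⟨g, h⟩ => (reindexAlgEquiv F F e).injective h ▸ g.2⟩

theorem IsSp4.exists_crit [Finite F] [Finite G] {φ : G →* M4 F} (hφ : IsSp4 φ)
    (h2 : (2 : F) ≠ 0) : ∃ U, Crit 2 U (Subgroup.center G) := by
  obtain ⟨a, b, hab⟩ := exists_quad h2 (one_ne_zero) (one_ne_zero) (-1 : F)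
  rw [one_mul, one_mul] at hab
  obtain ⟨ψ, hψ⟩ : ∃ ψ : Matrix.SpecialLinearGroup (Fin 2) F →* M2 F, IsSL ψ := ⟨_, isSL_coe _ _⟩
  obtain ⟨z, hz⟩ := hψ.surj (-1) (by simp [det_fin_two])
  obtain ⟨i, hi⟩ := hψ.surj _ det_mI
  obtain ⟨j, hj⟩ := hψ.surj _ (det_mJ hab)
  have q := hψ.qpair h2 hab hz hi hj
  choose d0 hd0 using fun x : Matrix.SpecialLinearGroup (Fin 2) F × Matrix.SpecialLinearGroup (Fin 2) F =>
    (hφ.mem (fromBlocks (ψ x.1) 0 0 (ψ x.2))).1 (by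
      simp [fromBlocks_multiply, fromBlocks_transpose, mul_mI_mul_transpose, hψ.det])
  let d := MonoidHom.mk' d0 fun x y => hφ.inj (by simp [hd0, fromBlocks_multiply])
  have hd : ∀ x y, φ (d (x, y)) = fromBlocks (ψ x) 0 0 (ψ y) := fun x y => hd0 _
  obtain ⟨τ, hτ⟩ := (hφ.mem (fromBlocks 0 1 1 0)).1 (by
    simp [fromBlocks_multiply, fromBlocks_transpose])
  have key : ∀ c, c * c = z → ∃ C, C * C = d (c, c) * (d (1, z) * τ) ∧
      C * d (c, c) * C⁻¹ = d (c, c) ∧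
      (∀ e, ψ e * ψ c = -(ψ c * ψ e) → C * d (e, e) * C⁻¹ = d (c, c) * d (e, e)) ∧
      C * d (1, z) * C⁻¹ = τ * d (z, z) ∧ C * τ * C⁻¹ = d (1, z) := fun c hc => by
    have h1 : ψ c * ψ c = -1 := by rw [← map_mul, hc, hz]
    have h3 := trace_eq_zero (hψ.det c) h1
    have h4 := hψ.det c
    obtain ⟨u, hu⟩ : ∃ u, u = (2 : F)⁻¹ • (1 + ψ c) := ⟨_, rfl⟩
    have h5 : u.det + u.det = 1 := by
      rw [trace_fin_two] at h3
      rw [det_fin_two] at h4
      simp only [hu, det_fin_two, Matrix.smul_apply, Matrix.add_apply, one_apply_eq, smul_eq_mul,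
        one_apply_ne (zero_ne_one' (Fin 2)), one_apply_ne (one_ne_zero' (Fin 2))]
      field_simp
      linear_combination 2 * h3 + 2 * h4
    have h6 : u * u + u * u = ψ c := by
      rw [hu, smul_mul_smul_comm, add_mul, mul_add, mul_add, h1, ← add_smul]
      simp only [one_mul, mul_one]
      rw [show (1 : M2 F) + ψ c + (ψ c + -1) = (2 : F) • ψ c by rw [two_smul]; abel, smul_smul]
      rw [show (2⁻¹ * 2⁻¹ + 2⁻¹ * 2⁻¹ : F) * 2 = 1 by field_simp; ring, one_smul]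
    obtain ⟨C, hC⟩ := (hφ.mem (fromBlocks u u (-u) u)).1 (by
      simp [fromBlocks_multiply, fromBlocks_transpose, mul_mI_mul_transpose, ← add_smul, h5])
    refine ⟨C, hφ.inj ?_, ?_, fun e he => ?_, ?_, ?_⟩ <;>
      (try refine mul_inv_eq_iff_eq_mul.2 (hφ.inj ?_)) <;>
      simp [hC, hd, hτ, hz, fromBlocks_multiply]
    · rw [h6, ← neg_add, h6]
      exact ⟨rfl, rfl⟩
    · simp [hu, add_mul, mul_add]
    · rw [hu, smul_mul_assoc, mul_smul_comm, add_mul, mul_add, mul_one, mul_assoc (ψ c), he, mul_neg,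
        ← mul_assoc, h1]
      simp [add_comm]
  obtain ⟨A, hA⟩ := key i q.ii
  obtain ⟨B, hB⟩ := key j q.jj
  refine Sp4Data.exists_crit (d := d) (τ := τ) ⟨q, hψ.uniq h2 hz, hψ.central hz,
    hψ.isConj h2 hab hz hi hj, hψ.centralizer h2 hab hz hi hj, fun x y h => ?_,
    hφ.inj (by simp [hτ, fromBlocks_multiply]),
    fun x y => hφ.inj (by simp [hτ, hd, fromBlocks_multiply]), fun g hg => ?_,
    fun g => hφ.inj ?_, hA.1, hA.2.1, hA.2.2.1 j (by rw [hi, hj, mJ_mul_mI]), hA.2.2.2.1,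
    hA.2.2.2.2, hB.1, hB.2.2.1 i (by rw [hi, hj, mJ_mul_mI, neg_neg]), hB.2.1, hB.2.2.2.1,
    hB.2.2.2.2⟩
  · have := congrArg φ h
    rw [hd, hd, fromBlocks_inj] at this
    exact Prod.ext (hψ.inj this.1) (hψ.inj this.2.2.2)
  · have h1 := congrArg φ hg
    have h3 := (hφ.mem _).2 ⟨g, rfl⟩
    rw [map_mul, map_mul, hd, hz, map_one] at h1
    have h4 := fromBlocks_toBlocks (φ g)
    generalize (φ g).toBlocks₁₁ = x, (φ g).toBlocks₁₂ = y, (φ g).toBlocks₂₁ = w,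
      (φ g).toBlocks₂₂ = v at h4
    rw [← h4] at h1 h3
    have h5 : ∀ y : M2 F, -y = y → y = 0 := fun y h =>
      (smul_eq_zero.1 (show (2 : F) • y = 0 by rw [two_smul, ← eq_neg_iff_add_eq_zero, h])).resolve_left h2
    simp [fromBlocks_multiply] at h1
    obtain rfl := h5 _ h1.1
    obtain rfl := h5 _ h1.2.symm
    simp [fromBlocks_multiply, fromBlocks_transpose] at h3
    obtain ⟨x, rfl⟩ := hψ.surj _ (det_eq_one_of_mul_mI h3.1)
    obtain ⟨v, rfl⟩ := hψ.surj _ (det_eq_one_of_mul_mI h3.2)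
    exact ⟨x, v, hφ.inj (by rw [hd, h4])⟩
  · have : φ (d (z, z)) = -1 := by rw [hd, hz, ← fromBlocks_one, fromBlocks_neg, neg_zero]
    simp [this]

end Cfsg.Agent.Mat
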